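import Cfsg.Agent.H46.Weyl
import Cfsg.Agent.H64.Chev.SimpleGen
import Mathlib.RingTheory.IntegralDomain

/-!
# Two-generation of Chevalley groups: the general machine

A subgroup containing `h_{p_i}(ζ) x_m(1)` and `x_r(1) n_w` contains the whole root group `X_r` when the torus element
acts on `r` by `ζ^{±1}`, hence `n_w`, the root groups over the orbit of `r` and the elements `x(±1)` over the orbit of
`m`. The commutator formula, run along a certificate, then gives the root groups of the fundamental roots and their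
negatives.
-/

set_option autoImplicit false

namespace Cfsg.Agent.H75.ChevTwoGen

open Cfsg.Lie Cfsg.Agent.H46
open scoped MatrixGroups

variable {D : ChevalleyDatum} (G : Good D) {F : Type*} [Field F]

/-- The root permutation of a word in fundamental reflections. -/
def wact (D : ChevalleyDatum) (w : List ℕ) (s : ℕ) : ℕ := w.foldr (fun i a => D.reflectRoot i a) s

/-- The element `n_w`. -/
noncomputable def nW (w : List ℕ) : GL D.Idx F := (w.map fun i => G.ng (D.simple i) (1 : F)).prod

/-- The word uses fundamental roots only. -/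
def okWord (D : ChevalleyDatum) (w : List ℕ) : Bool := w.all fun i => Nat.blt i D.rank

theorem okWord_lt {w : List ℕ} (h : okWord D w = true) : ∀ i ∈ w, i < D.rank := fun i hi =>
  Nat.blt_eq ▸ (List.all_eq_true.1 h i hi)

theorem nW_mem_group (w : List ℕ) : nW G (F := F) w ∈ D.group F :=
  Subgroup.list_prod_mem _ fun g hg => by
    obtain ⟨i, -, rfl⟩ := List.mem_map.1 hg
    exact G.ng_mem_group _ _

theorem nW_mem_N {w : List ℕ} (hw : okWord D w = true) : nW G (F := F) w ∈ D.monomialSubgroup F :=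
  Subgroup.list_prod_mem _ fun g hg => by
    obtain ⟨i, hi, rfl⟩ := List.mem_map.1 hg
    exact G.ng_mem_N (G.simple_lt (okWord_lt hw i hi)) one_ne_zero

theorem nW_mul_xg {w : List ℕ} (hw : ∀ i ∈ w, i < D.rank) {s : ℕ} (hs : s < D.nroots) :
    wact D w s < D.nroots ∧ ∃ ε : F, (ε = 1 ∨ ε = -1) ∧
      ∀ t : F, nW G w * G.xg s t = G.xg (wact D w s) (ε * t) * nW G w := by
  induction w with
  | nil => exact ⟨hs, 1, Or.inl rfl, fun t => by simp [nW, wact]⟩
  | cons i w ih =>
    obtain ⟨h1, ε, hε, h2⟩ := ih fun j hj => hw j (List.mem_cons_of_mem _ hj)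
    have hi : i < D.rank := hw i List.mem_cons_self
    refine ⟨G.reflectRoot_lt hi h1, (G.tab.eta i (wact D w s) : F) * ε, ?_, fun t => ?_⟩
    · rcases G.eta_eq i (wact D w s) with h | h <;> rcases hε with rfl | rfl <;> simp [h]
    · have h3 : nW G (i :: w) = G.ng (D.simple i) (1 : F) * nW G w := by simp [nW]
      have h4 : wact D (i :: w) s = D.reflectRoot i (wact D w s) := rfl
      rw [h3, h4, mul_assoc (G.ng (D.simple i) (1 : F)), h2, ← mul_assoc, G.ng_simple_mul_xg hi h1, mul_assoc,
        mul_assoc]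

/-- All of `X_r` lies in `H`. -/
def Full (H : Subgroup (GL D.Idx F)) (r : ℕ) : Prop := ∀ t : F, G.xg r t ∈ H

/-- `x_r(1)` lies in `H`. -/
def One (H : Subgroup (GL D.Idx F)) (r : ℕ) : Prop := G.xg r (1 : F) ∈ H

variable {G} {H : Subgroup (GL D.Idx F)}

theorem Full.one {r : ℕ} (h : Full G H r) : One G H r := h 1

theorem One.sign {r : ℕ} (h : One G H r) {ε : F} (hε : ε = 1 ∨ ε = -1) : G.xg r ε ∈ H := by
  rcases hε with rfl | rfl
  · exact h
  · rw [← G.xg_inv]; exact inv_mem h

theorem Full.wact {w : List ℕ} (hw : okWord D w = true) (hn : nW G w ∈ H) {s : ℕ} (hs : s < D.nroots)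
    (h : Full G H s) : Full G H (wact D w s) := by
  obtain ⟨-, ε, hε, h2⟩ := nW_mul_xg G (okWord_lt hw) hs (F := F)
  intro t
  have h3 := mul_mem (mul_mem hn (h (ε * t))) (inv_mem hn)
  rwa [h2, ← mul_assoc, show ε * ε = 1 by rcases hε with rfl | rfl <;> simp, one_mul, mul_inv_cancel_right] at h3

theorem One.wact {w : List ℕ} (hw : okWord D w = true) (hn : nW G w ∈ H) {s : ℕ} (hs : s < D.nroots)
    (h : One G H s) : One G H (wact D w s) := by
  obtain ⟨-, ε, hε, h2⟩ := nW_mul_xg G (okWord_lt hw) hs (F := F)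
  have h3 := mul_mem (mul_mem hn (h.sign hε)) (inv_mem hn)
  rwa [h2, show ε * ε = 1 by rcases hε with rfl | rfl <;> simp, mul_inv_cancel_right] at h3

/-- `L` lists successive images of its head under the word. -/
def chainB (D : ChevalleyDatum) (w : List ℕ) : ℕ → List ℕ → Bool
  | _, [] => true
  | r, s :: L => Nat.blt r D.nroots && Nat.beq (wact D w r) s && chainB D w s L

theorem chain_spec {P : ℕ → Prop} {w : List ℕ}
    (hP : ∀ s < D.nroots, P s → P (ChevTwoGen.wact D w s)) :
    ∀ (L : List ℕ) (r : ℕ), chainB D w r L = true → P r → ∀ s ∈ r :: L, P s := by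
  intro L
  induction L with
  | nil => intro r _ hr s hs; rw [List.mem_singleton.1 hs]; exact hr
  | cons s L ih =>
    intro r hc hr u hu
    simp only [chainB, Bool.and_eq_true, Nat.blt_eq] at hc
    rcases List.mem_cons.1 hu with rfl | hu
    · exact hr
    · exact ih s hc.2 (Nat.eq_of_beq_eq_true hc.1.2 ▸ hP r hc.1.1 hr) u hu

theorem isolate {α : Type*} (f : α → GL D.Idx F) (P : α → Bool) :
    ∀ (L : List α) {x : α}, (∀ c ∈ L, P c = true → f c ∈ H) → L.filter (fun c => !P c) = [x] →
      (L.map f).prod ∈ H → f x ∈ H := by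
  intro L
  induction L with
  | nil => intro x _ h _; simp at h
  | cons c L ih =>
    intro x hP hfil hprod
    rw [List.map_cons, List.prod_cons] at hprod
    cases hc : P c with
    | true =>
      refine ih (fun d hd => hP d (List.mem_cons_of_mem _ hd)) (by simpa [hc] using hfil) ?_
      exact (H.mul_mem_cancel_left (hP c List.mem_cons_self hc)).1 hprod
    | false =>
      simp only [List.filter_cons, hc, Bool.not_false, if_true, List.cons.injEq] at hfil
      obtain ⟨rfl, hnil⟩ := hfil
      refine (H.mul_mem_cancel_right ?_).1 hprod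
      refine Subgroup.list_prod_mem _ fun g hg => ?_
      obtain ⟨d, hd, rfl⟩ := List.mem_map.1 hg
      refine hP d (List.mem_cons_of_mem _ hd) ?_
      have := List.filter_eq_nil_iff.1 hnil d hd
      simpa using this

/-- The factor of the commutator formula belonging to a term. -/
noncomputable def term (G : Good D) (t u : F) (c : ℕ × ℤ × ℕ × ℕ) : GL D.Idx F :=
  G.xg c.1 ((c.2.1 : F) * (-t) ^ c.2.2.1 * u ^ c.2.2.2)

theorem xg_comm {r s : ℕ} (hr : r < D.nroots) (hs : s < D.nroots) (hrs : s ≠ r) (hneg : s ≠ D.neg r) (t u : F) :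
    G.xg s u * G.xg r t = G.xg r t * G.xg s u * ((D.commTerms r s).map (term G t u)).prod := by
  apply Units.ext
  have e : ∀ L : List (ℕ × ℤ × ℕ × ℕ), (((L.map (term G t u)).prod : GL D.Idx F) : Matrix D.Idx D.Idx F) =
      D.wordMat F (L.map fun c => (c.1, (c.2.1 : F) * (-t) ^ c.2.2.1 * u ^ c.2.2.2)) := by
    intro L
    induction L with
    | nil => simp [wordMat_nil]
    | cons a L ih =>
      rw [List.map_cons, List.prod_cons, List.map_cons, wordMat_cons, Units.val_mul, ih]
      rfl
  simp only [Units.val_mul, e]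
  exact G.x_mul_x hr hs hrs hneg t u

theorem word_mem {r s : ℕ} (hr : r < D.nroots) (hs : s < D.nroots) (hrs : s ≠ r) (hneg : s ≠ D.neg r) {t u : F}
    (ha : G.xg r t ∈ H) (hb : G.xg s u ∈ H) : ((D.commTerms r s).map (term G t u)).prod ∈ H := by
  have h := mul_mem hb ha
  rw [xg_comm hr hs hrs hneg] at h
  exact (H.mul_mem_cancel_left (mul_mem ha hb)).1 h

theorem exists_sum_sq [Finite F] (c : F) (S : AddSubgroup F) (h : ∀ t : F, t ^ 2 ∈ S) : c ∈ S := by
  by_cases h2 : (2 : F) = 0
  · haveI : CharP F 2 := CharTwo.of_one_ne_zero_of_two_eq_zero one_ne_zero h2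
    obtain ⟨t, rfl⟩ := Finite.surjective_of_injective
      (f := fun t : F => t ^ 2) (fun x y hxy => CharTwo.sq_injective hxy) c
    exact h t
  · have e : c = ((c + 1) / 2) ^ 2 - ((c - 1) / 2) ^ 2 := by
      field_simp
      ring
    rw [e]
    exact sub_mem (h _) (h _)

variable (G H) in
/-- The parameters `t` with `x_k(t) ∈ H`. -/
def paramGroup (k : ℕ) : AddSubgroup F where
  carrier := {t | G.xg k t ∈ H}
  add_mem' {a b} ha hb := by
    show G.xg k (a + b) ∈ H
    rw [← G.xg_add]; exact mul_mem ha hb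
  zero_mem' := by show G.xg k (0 : F) ∈ H; rw [G.xg_zero]; exact one_mem _
  neg_mem' {a} ha := by
    show G.xg k (-a) ∈ H
    rw [← G.xg_inv]; exact inv_mem ha

/-- One step of a certificate: `X_a` and `x_b(1)` give `X_k`. -/
def chkStep (D : ChevalleyDatum) (full one : List ℕ) : ℕ × ℕ × ℕ → Bool
  | (a, b, k) => full.contains a && (full.contains b || one.contains b) && Nat.blt a D.nroots &&
      Nat.blt b D.nroots && !Nat.beq b a && !Nat.beq b (D.neg a) &&
      match (D.commTerms a b).filter (fun c => !full.contains c.1) with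
      | [c] => Nat.beq c.1 k && (decide (c.2.1 = 1) || decide (c.2.1 = -1)) &&
          (Nat.beq c.2.2.1 1 || Nat.beq c.2.2.1 2)
      | _ => false

theorem step_spec [Finite F] {full one : List ℕ} {st : ℕ × ℕ × ℕ} (h : chkStep D full one st = true)
    (hf : ∀ r ∈ full, Full G H r) (ho : ∀ r ∈ one, One G H r) : Full G H st.2.2 := by
  obtain ⟨a, b, k⟩ := st
  simp only [chkStep, Bool.and_eq_true, Bool.or_eq_true, Bool.not_eq_true', Nat.blt_eq, List.contains_iff_mem] at h
  obtain ⟨⟨⟨⟨⟨⟨ha, hb⟩, ha'⟩, hb'⟩, hne⟩, hneg⟩, hm⟩ := h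
  have hne' : b ≠ a := fun e => by subst e; simp at hne
  have hneg' : b ≠ D.neg a := fun e => by subst e; simp at hneg
  have hb1 : One G H b := hb.elim (fun h => (hf b h).one) (ho b)
  generalize hL : (D.commTerms a b).filter (fun c => !full.contains c.1) = L at hm
  match L, hm with
  | [c], hm =>
    simp only [Bool.and_eq_true, Bool.or_eq_true, decide_eq_true_eq] at hm
    obtain ⟨⟨hk, hM⟩, hi⟩ := hm
    have hk' : c.1 = k := Nat.eq_of_beq_eq_true hk
    subst hk'
    have key : ∀ t : F, G.xg c.1 ((c.2.1 : F) * (-t) ^ c.2.2.1) ∈ H := by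
      intro t
      have := isolate (H := H) (term G t 1) (fun d => full.contains d.1) (D.commTerms a b)
        (fun d _ hd => hf d.1 (by simpa using hd) _) hL (word_mem ha' hb' hne' hneg' (hf a ha t) hb1)
      simpa [term] using this
    have hM2 : (c.2.1 : F) * (c.2.1 : F) = 1 := by rcases hM with e | e <;> simp [e]
    intro t
    show t ∈ paramGroup G H c.1
    rcases hi with hi | hi
    · have hi' := Nat.eq_of_beq_eq_true hi
      have := key (-((c.2.1 : F) * t))
      rw [hi', pow_one, neg_neg, ← mul_assoc, hM2, one_mul] at this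
      exact this
    · have hi' := Nat.eq_of_beq_eq_true hi
      have hsq : ∀ u : F, u ^ 2 ∈ paramGroup G H c.1 := by
        intro u
        have h3 := key u
        rw [hi', neg_sq] at h3
        rcases hM with e | e
        · show G.xg c.1 (u ^ 2) ∈ H
          simpa [e] using h3
        · have h4 : G.xg c.1 (-(u ^ 2)) ∈ H := by simpa [e] using h3
          exact neg_neg (u ^ 2) ▸ (paramGroup G H c.1).neg_mem h4
      exact exists_sum_sq t _ hsq

/-- A whole certificate. -/
def chkSteps (D : ChevalleyDatum) (one : List ℕ) : List ℕ → List (ℕ × ℕ × ℕ) → Bool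
  | full, [] => (List.range D.rank).all fun i => full.contains (D.simple i) && full.contains (D.neg (D.simple i))
  | full, s :: ss => chkStep D full one s && chkSteps D one (s.2.2 :: full) ss

theorem steps_spec [Finite F] (hdesc : H64.Chev.chkDescend D = true) {one : List ℕ} (ho : ∀ r ∈ one, One G H r) :
    ∀ (ss : List (ℕ × ℕ × ℕ)) (full : List ℕ), chkSteps D one full ss = true → (∀ r ∈ full, Full G H r) →
      D.group F ≤ H := by
  intro ss
  induction ss with
  | nil =>
    intro full h hf
    simp only [chkSteps, List.all_eq_true, List.mem_range, Bool.and_eq_true, List.contains_iff_mem] at h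
    exact H64.Chev.group_le_of_simple G hdesc (fun i hi => hf _ (h i hi).1) (fun i hi => hf _ (h i hi).2)
  | cons s ss ih =>
    intro full h hf
    simp only [chkSteps, Bool.and_eq_true] at h
    refine ih _ h.2 fun r hr => ?_
    rcases List.mem_cons.1 hr with rfl | hr
    · exact step_spec h.1 hf ho
    · exact hf r hr

/-- The conditions on the torus element and the roots. -/
def chkSeed (D : ChevalleyDatum) (w : List ℕ) (i m r r' : ℕ) : Bool :=
  okWord D w && Nat.blt i D.rank && Nat.blt m D.nroots && Nat.blt r D.nroots && Nat.blt r' D.nroots &&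
    Nat.beq (wact D w r') r && decide (D.cartan i m = 0) &&
    (decide (D.cartan i r = 1) || decide (D.cartan i r = -1)) &&
    (decide (D.cartan i r' = 1) || decide (D.cartan i r' = -1))

theorem zeta_zpow_ne_one {ζ : F} (hζ : ζ ≠ 1) {e : ℤ} (he : e = 1 ∨ e = -1) : ζ ^ e ≠ 1 := by
  rcases he with rfl | rfl
  · simpa using hζ
  · simpa using hζ

variable (G) in
/-- The first generator. -/
noncomputable def genA (i m : ℕ) (ζ : F) : GL D.Idx F := G.hg (D.simple i) ζ * G.xg m 1

variable (G) in
/-- The second generator. -/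
noncomputable def genB (w : List ℕ) (r : ℕ) : GL D.Idx F := G.xg r (1 : F) * nW G w

theorem seed_spec [Finite F] {w : List ℕ} {i m r r' : ℕ} (h : chkSeed D w i m r r' = true) (ζ : Fˣ)
    (hgen : ∀ x : Fˣ, x ∈ Subgroup.zpowers ζ) (hne : ζ ≠ 1)
    (ha : genA G i m (ζ : F) ∈ H) (hb : genB G w r ∈ H) :
    Full G H r ∧ One G H m ∧ nW G w ∈ H := by
  classical
  simp only [chkSeed, Bool.and_eq_true, Bool.or_eq_true, decide_eq_true_eq, Nat.blt_eq] at h
  obtain ⟨⟨⟨⟨⟨⟨⟨⟨hw, hi⟩, hm⟩, hr⟩, hr'⟩, hwr⟩, hcm⟩, her⟩, her'⟩ := h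
  replace hwr := Nat.eq_of_beq_eq_true hwr
  have hs := G.simple_lt hi
  have hζ0 : (ζ : F) ≠ 0 := ζ.ne_zero
  have hζ1 : (ζ : F) ≠ 1 := fun e => hne (Units.ext e)
  set h := G.hg (D.simple i) (ζ : F) with hdef
  set u := G.xg m (1 : F)
  have hact : ∀ s < D.nroots, ∀ t : F, h * G.xg s t = G.xg s ((ζ : F) ^ D.cartan i s * t) * h := by
    intro s hs' t
    rw [G.hg_mul_xg hs hs' hζ0, G.pairing_simple hi hs']
  have hcomm : Commute h u := by
    show h * u = u * h
    rw [hact m hm, hcm, zpow_zero, one_mul]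
  -- separate the two commuting factors of the first generator
  obtain ⟨p, hp⟩ := CharP.exists F
  haveI : Fact p.Prime := ⟨(CharP.char_is_prime_or_zero F p).resolve_right (CharP.char_ne_zero_of_finite F p)⟩
  haveI : Fintype F := Fintype.ofFinite F
  have hq : Nat.card Fˣ = Fintype.card F - 1 := by
    rw [Nat.card_eq_fintype_card, Fintype.card_units]
  have hhord : h ^ Nat.card Fˣ = 1 := by
    rw [hdef, G.hg_eq_torus hs, ← map_pow, Pi.pow_def]
    have e : (fun j : Fin D.rank => (ζ ^ G.tab.cor (D.simple i) j) ^ Nat.card Fˣ) = 1 := funext fun j => pow_card_eq_one'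
    rw [e, map_one]
  have hupow : ∀ n : ℕ, u ^ n = G.xg m (n : F) := by
    intro n
    induction n with
    | zero => simp [G.xg_zero]
    | succ n ih => rw [pow_succ, ih, G.xg_add, Nat.cast_succ]
  have hum : u ∈ H := by
    have h1 : (h * u) ^ Nat.card Fˣ ∈ H := pow_mem ha _
    rw [hcomm.mul_pow, hhord, one_mul, hupow, hq, Nat.cast_sub Fintype.card_pos, Nat.cast_one,
      Nat.cast_card_eq_zero, zero_sub, ← G.xg_inv] at h1
    simpa using inv_mem h1
  have hhH : h ∈ H := by
    have := mul_mem ha (inv_mem hum)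
    rwa [show genA G i m (ζ : F) = h * u from rfl, mul_inv_cancel_right] at this
  -- the conjugate of `h` by the second generator
  set n := nW G (F := F) w
  set h' := n * h * n⁻¹ with h'def
  obtain ⟨-, ε, hε, hn⟩ := nW_mul_xg G (okWord_lt hw) hr' (F := F)
  rw [hwr] at hn
  change ∀ t : F, n * G.xg r' t = G.xg r (ε * t) * n at hn
  have hεε : ε * ε = 1 := by rcases hε with rfl | rfl <;> simp
  set β := (ζ : F) ^ D.cartan i r' with hβ
  have hh' : ∀ t : F, h' * G.xg r t = G.xg r (β * t) * h' := by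
    intro t
    have e1 : n⁻¹ * G.xg r t = G.xg r' (ε * t) * n⁻¹ := by
      rw [inv_mul_eq_iff_eq_mul, ← mul_assoc, hn, ← mul_assoc, hεε, one_mul, mul_inv_cancel_right]
    calc h' * G.xg r t = n * h * (n⁻¹ * G.xg r t) := by rw [h'def]; group
      _ = n * (h * G.xg r' (ε * t)) * n⁻¹ := by rw [e1]; group
      _ = (n * G.xg r' (β * (ε * t))) * h * n⁻¹ := by rw [hact r' hr', ← hβ]; group
      _ = _ := by
          rw [hn, mul_left_comm ε β, ← mul_assoc ε ε, hεε, one_mul, h'def]; group
  have hhd : h ∈ D.diagonalSubgroup F := G.hg_mem_diagonal hs hζ0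
  have hh'd : h' ∈ D.diagonalSubgroup F := by
    first
    | exact G.diagonal_normalized (nW_mem_N G hw) hhd
    | exact (G.diagonal_normalized (nW_mem_N G hw) hhd).1
  have hc : h * h' = h' * h := G.diagonal_comm hhd hh'd
  set c : F := 1 - β
  set α := (ζ : F) ^ D.cartan i r
  have ha' : G.xg r c * h' ∈ H := by
    have h1 := mul_mem (mul_mem hb hhH) (inv_mem hb)
    have e : genB G w r * h * (genB G w r)⁻¹ = G.xg r c * h' := by
      calc genB G w r * h * (genB G w r)⁻¹ = G.xg r 1 * (h' * (G.xg r (1 : F))⁻¹) := by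
            rw [show genB G w r = G.xg r (1 : F) * n from rfl, h'def]; group
        _ = (G.xg r 1 * G.xg r (β * -1)) * h' := by rw [G.xg_inv, hh', mul_assoc]
        _ = _ := by rw [G.xg_add, mul_neg_one, ← sub_eq_add_neg]
    rwa [e] at h1
  have hd : G.xg r (α * c - c) ∈ H := by
    have := mul_mem (mul_mem (mul_mem hhH ha') (inv_mem hhH)) (inv_mem ha')
    convert this using 1
    rw [← mul_assoc h, hact r hr, mul_assoc _ h h', hc, ← mul_assoc, mul_inv_cancel_right, mul_inv_rev,
      mul_assoc _ h', mul_inv_cancel_left, G.xg_inv, G.xg_add, sub_eq_add_neg]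
  have hd0 : α * c - c ≠ 0 := by
    rw [← sub_one_mul]
    exact mul_ne_zero (sub_ne_zero.2 (zeta_zpow_ne_one hζ1 her)) (sub_ne_zero.2 (zeta_zpow_ne_one hζ1 her').symm)
  have hpow : ∀ (z : ℤ) (t : F), G.xg r t ∈ H → G.xg r (α ^ z * t) ∈ H := by
    intro z
    induction z using Int.induction_on with
    | zero => intro t ht; simpa using ht
    | succ z ih =>
      intro t ht
      have := mul_mem (mul_mem hhH (ih t ht)) (inv_mem hhH)
      rw [hact r hr, mul_inv_cancel_right, ← mul_assoc, ← zpow_one_add₀ (zpow_ne_zero _ hζ0)] at this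
      rwa [add_comm]
    | pred z ih =>
      intro t ht
      have := mul_mem (mul_mem (inv_mem hhH) (ih t ht)) hhH
      convert this using 1
      rw [mul_assoc, eq_inv_mul_iff_mul_eq, hact r hr]
      congr 2
      rw [← mul_assoc]
      change α * α ^ (-(z : ℤ) - 1) * t = _
      rw [← zpow_one_add₀ (zpow_ne_zero _ hζ0), show (1 : ℤ) + (-(z : ℤ) - 1) = -(z : ℤ) by ring]
  have hfull : Full G H r := by
    intro t
    by_cases ht : t = 0
    · subst ht; rw [G.xg_zero]; exact one_mem _
    obtain ⟨k, hk⟩ := Subgroup.mem_zpowers_iff.1 (hgen (Units.mk0 (t / (α * c - c)) (div_ne_zero ht hd0)))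
    have hk' : (ζ : F) ^ k = t / (α * c - c) := by
      rw [← Units.val_zpow_eq_zpow_val, hk]; rfl
    have := hpow (D.cartan i r * k) _ hd
    have e : α ^ (D.cartan i r * k) = (ζ : F) ^ k := by
      rw [← zpow_mul]; congr 1
      rcases her with e | e <;> rw [e] <;> ring
    rwa [e, hk', div_mul_cancel₀ t hd0] at this
  refine ⟨hfull, hum, ?_⟩
  have := mul_mem (inv_mem (hfull 1)) hb
  rwa [genB, inv_mul_cancel_left] at this

/-- Everything a certificate checks. -/
def chkCert (D : ChevalleyDatum) (w : List ℕ) (i r' m : ℕ) (om : List ℕ) (r : ℕ) (or : List ℕ)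
    (ss : List (ℕ × ℕ × ℕ)) : Bool :=
  chkSeed D w i m r r' && chainB D w r or && chainB D w m om && chkSteps D (m :: om) (r :: or) ss

theorem exists_pair_of_cert (G : Good D) [Finite F] (hdesc : H64.Chev.chkDescend D = true) (hq : ∃ x : F, x ≠ 0 ∧ x ≠ 1)
    {w : List ℕ} {i r' m r : ℕ} {om or : List ℕ} {ss : List (ℕ × ℕ × ℕ)}
    (h : chkCert D w i r' m om r or ss = true) :
    ∃ a ∈ D.group F, ∃ b ∈ D.group F, D.group F ≤ Subgroup.closure {a, b} := by
  simp only [chkCert, Bool.and_eq_true] at h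
  obtain ⟨⟨⟨hseed, hor⟩, hom⟩, hss⟩ := h
  obtain ⟨ζ, hζ⟩ := IsCyclic.exists_generator (α := Fˣ)
  have hne : ζ ≠ 1 := by
    rintro rfl
    obtain ⟨x, hx0, hx1⟩ := hq
    have := hζ (Units.mk0 x hx0)
    rw [Subgroup.zpowers_one_eq_bot, Subgroup.mem_bot] at this
    exact hx1 (congrArg Units.val this)
  refine ⟨genA G i m (ζ : F), mul_mem (G.hg_mem_group _ _) (G.xg_mem_group _ _), genB G w r,
    mul_mem (G.xg_mem_group _ _) (nW_mem_group G w), ?_⟩
  set H := Subgroup.closure {genA G i m (ζ : F), genB G w r}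
  obtain ⟨hf, ho, hn⟩ := seed_spec (H := H) hseed ζ hζ hne (Subgroup.subset_closure (Set.mem_insert _ _))
    (Subgroup.subset_closure (Set.mem_insert_of_mem _ rfl))
  have hw : okWord D w = true := by
    simp only [chkSeed, Bool.and_eq_true] at hseed
    exact hseed.1.1.1.1.1.1.1.1
  exact steps_spec hdesc (chain_spec (P := One G H) (fun s hs => One.wact hw hn hs) om m hom ho) ss _ hss
    (chain_spec (P := Full G H) (fun s hs => Full.wact hw hn hs) or r hor hf)

theorem two_generated_of_le {K : Type*} [Group K] {P : Subgroup K}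
    (h : ∃ a ∈ P, ∃ b ∈ P, P ≤ Subgroup.closure {a, b}) :
    ∃ a b : P, Subgroup.closure ({a, b} : Set P) = ⊤ := by
  obtain ⟨a, ha, b, hb, hle⟩ := h
  refine ⟨⟨a, ha⟩, ⟨b, hb⟩, ?_⟩
  apply Subgroup.map_injective P.subtype_injective
  rw [MonoidHom.map_closure, ← MonoidHom.range_eq_map, Subgroup.range_subtype, Set.image_pair]
  refine le_antisymm ((Subgroup.closure_le _).2 ?_) hle
  rintro x (rfl | rfl)
  exacts [ha, hb]

end Cfsg.Agent.H75.ChevTwoGen
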